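import Mathlib
import Cfsg.Agent.H226.KList

/-!
# Solvable centralisers of the central elements of order `p` of a Sylow `p`-subgroup (helper238)

* `SC p L` : every element of order `p` centralised by a Sylow `p`-subgroup of `L` has solvable centraliser;
* `SC.congr` : transport; `SC.of_one` : one Sylow subgroup is enough; `SC.of_exists` : one element is enough if the elements
  of order `p` centralised by `P` are conjugate up to powers.
-/

set_option autoImplicit false

namespace Cfsg.Agent.H238.SolCent

open Subgroup

universe u v

/-- every element of order `p` centralised by a Sylow `p`-subgroup has solvable centraliser -/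
def SC (p : ℕ) (L : Type u) [Group L] : Prop :=
  ∀ (P : Sylow p L) (z : L), orderOf z = p → (∀ x ∈ P, x * z = z * x) →
    Group.IsSolvable ↥(centralizer ({z} : Set L))

theorem solvable_conj {L : Type u} [Group L] {z w g : L} (h : g * z * g⁻¹ = w)
    (hz : Group.IsSolvable ↥(centralizer ({z} : Set L))) : Group.IsSolvable ↥(centralizer ({w} : Set L)) := by
  subst h
  let f : ↥(centralizer ({g * z * g⁻¹} : Set L)) →* ↥(centralizer ({z} : Set L)) :=
    { toFun := fun y => ⟨g⁻¹ * y * g, by
        have h1 := mem_centralizer_singleton_iff.1 y.2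
        rw [mem_centralizer_singleton_iff]
        calc g⁻¹ * (y : L) * g * z = g⁻¹ * ((y : L) * (g * z * g⁻¹)) * g := by group
          _ = g⁻¹ * ((g * z * g⁻¹) * (y : L)) * g := by rw [h1]
          _ = z * (g⁻¹ * (y : L) * g) := by group⟩
      map_one' := by apply Subtype.ext; show g⁻¹ * 1 * g = 1; group
      map_mul' := by
        intro a b
        apply Subtype.ext
        show g⁻¹ * ((a : L) * (b : L)) * g = g⁻¹ * (a : L) * g * (g⁻¹ * (b : L) * g)
        group }
  refine Group.isSolvable_of_isSolvable_injective (f := f) ?_
  intro a b hab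
  apply Subtype.ext
  have h1 : g⁻¹ * (a : L) * g = g⁻¹ * (b : L) * g := congrArg Subtype.val hab
  exact mul_left_cancel (mul_right_cancel h1)

theorem solvable_map {L : Type u} {L' : Type v} [Group L] [Group L'] (e : L ≃* L') {z : L}
    (hz : Group.IsSolvable ↥(centralizer ({z} : Set L))) : Group.IsSolvable ↥(centralizer ({e z} : Set L')) := by
  let f : ↥(centralizer ({e z} : Set L')) →* ↥(centralizer ({z} : Set L)) :=
    { toFun := fun y => ⟨e.symm y, by
        have h1 := mem_centralizer_singleton_iff.1 y.2
        rw [mem_centralizer_singleton_iff]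
        apply e.injective
        rw [map_mul, map_mul, MulEquiv.apply_symm_apply]
        exact h1⟩
      map_one' := by apply Subtype.ext; show e.symm 1 = 1; rw [map_one]
      map_mul' := by
        intro a b
        apply Subtype.ext
        show e.symm ((a : L') * (b : L')) = e.symm (a : L') * e.symm (b : L')
        rw [map_mul] }
  refine Group.isSolvable_of_isSolvable_injective (f := f) ?_
  intro a b hab
  apply Subtype.ext
  exact e.symm.injective (congrArg Subtype.val hab)

/-- one Sylow subgroup is enough -/
theorem SC.of_one {p : ℕ} [Fact p.Prime] {L : Type u} [Group L] [Finite L] (P : Sylow p L)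
    (h : ∀ z : L, orderOf z = p → (∀ x ∈ P, x * z = z * x) → Group.IsSolvable ↥(centralizer ({z} : Set L))) :
    SC p L := by
  intro Q z hz hzQ
  obtain ⟨g, rfl⟩ := MulAction.exists_smul_eq L P Q
  refine solvable_conj (z := g⁻¹ * z * g) (g := g) (by group) (h _ ?_ ?_)
  · have h1 : orderOf (MulAut.conj g⁻¹ z) = orderOf z := orderOf_injective (MulAut.conj g⁻¹).toMonoidHom
      (MulAut.conj g⁻¹).injective z
    rw [MulAut.conj_apply, inv_inv] at h1
    rw [h1, hz]
  · intro x hx
    have h1 : g * x * g⁻¹ ∈ (g • P : Sylow p L) := by
      show g * x * g⁻¹ ∈ ((g • P : Sylow p L) : Subgroup L)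
      rw [Sylow.coe_subgroup_smul]
      exact ⟨x, hx, rfl⟩
    have h2 := hzQ _ h1
    calc x * (g⁻¹ * z * g) = g⁻¹ * ((g * x * g⁻¹) * z) * g := by group
      _ = g⁻¹ * (z * (g * x * g⁻¹)) * g := by rw [h2]
      _ = g⁻¹ * z * g * x := by group

/-- transport -/
theorem SC.congr {p : ℕ} [Fact p.Prime] {L : Type u} {L' : Type v} [Group L] [Group L'] [Finite L] (e : L ≃* L')
    (h : SC p L) : SC p L' := by
  intro P z hz hzP
  have h1 := h (P.comapOfInjective e.toMonoidHom e.injective (by
    rw [MonoidHom.range_eq_top.2 e.surjective]; exact le_top)) (e.symm z) ?_ ?_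
  · have h2 := solvable_map e h1
    rwa [MulEquiv.apply_symm_apply] at h2
  · rw [← hz]
    exact orderOf_injective e.symm.toMonoidHom e.symm.injective z
  · intro x hx
    have h3 : e x ∈ P := hx
    apply e.injective
    rw [map_mul, map_mul, MulEquiv.apply_symm_apply]
    exact hzP _ h3

end Cfsg.Agent.H238.SolCent
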