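import Cfsg.Agent.H833.GFiveCent
import Cfsg.Agent.H238.SolCent
import Cfsg.Agent.SignalizersComponents.SLQuasisimple
import Cfsg.Agent.H238.Base

/-!
# The centraliser of a nontrivial element of the centre of a Sylow 5-subgroup of `G₂(5)` is not solvable (helper238)
-/

set_option autoImplicit false

namespace Cfsg.Agent.H238.GFiveNS

open Subgroup Cfsg.Lie
open Cfsg.Agent.ChevalleyStructure.Elts Cfsg.Agent.ChevalleyStructure.RootCombGood
  Cfsg.Agent.ChevalleyStructure.RootWord Cfsg.Agent.ChevalleyStructure.BruhatSplit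
open Cfsg.Agent.H82.RootCent (Dat M)
open Cfsg.Agent.H833.GFiveCent
open Cfsg.Agent.H120.GTwo (XX)
open Cfsg.Agent.H240.GFive (exists_sylow mem_zpow sys center)
open Cfsg.Agent.H240.LF Cfsg.Agent.H239.LFacts

universe u v

/-- `⟨X_a, X_-a⟩`, `a` the simple short root, is not solvable -/
theorem ns_range {F : Type} [Field F] [Fintype F] (hF : Fintype.card F = 5) :
    ¬ Group.IsSolvable ↥(chevG2.rootSubgroup F 7 ⊔ chevG2.rootSubgroup F 4 : Subgroup (GL chevG2.Idx F)) := by
  intro hs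
  obtain ⟨φ, hφ, hφ2⟩ := Cfsg.Agent.S1030.result (F := F) chevG2 inG2 7 (by decide +kernel)
  have e2 : chevG2.neg 7 = 4 := by decide +kernel
  rw [e2] at hφ
  rw [← hφ] at hs
  have hq := Cfsg.Agent.SignalizersComponents.SLQuasisimple.isQuasisimple_two (F := F)
    (by rw [Nat.card_eq_fintype_card, hF]; norm_num)
  have hp : ⁅(⊤ : Subgroup (Matrix.SpecialLinearGroup (Fin 2) F)), (⊤ : Subgroup (Matrix.SpecialLinearGroup (Fin 2) F))⁆ =
      (⊤ : Subgroup (Matrix.SpecialLinearGroup (Fin 2) F)) := by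
    have := hq.1.commutator_eq_top
    rwa [_root_.commutator_def] at this
  have h1 : ⁅φ.range, φ.range⁆ = φ.range := by
    rw [MonoidHom.range_eq_map, ← map_commutator, hp]
  have h2 := Cfsg.Agent.H238.eq_bot_of_perfect_of_isSolvable h1 hs
  let g : Matrix.SpecialLinearGroup (Fin 2) F := ⟨!![1, 1; 0, 1], by simp [Matrix.det_fin_two]⟩
  have h3 : ((φ g : GL chevG2.Idx F) : Matrix chevG2.Idx chevG2.Idx F) = chevG2.x F 7 1 := (hφ2 g 1).1 rfl
  have h4 : φ g = 1 := by
    have h5 : φ g ∈ φ.range := ⟨g, rfl⟩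
    rw [h2, mem_bot] at h5
    exact h5
  have h5 : xG inG2 7 (1 : F) = 1 := by
    apply Units.ext
    rw [coe_xG, ← h3, h4]
  exact one_ne_zero ((xG_eq_one_iff inG2 (by decide +kernel) (1 : F)).1 h5)

/-- **The centraliser of a nontrivial element of the centre of a Sylow 5-subgroup of `G₂(5)`.** -/
theorem not_solvable {L : Type u} [Group L] [Finite L] (h : Cfsg.Agent.H226.KList.GTwo 5 L) (S : Sylow 5 L) {t : L}
    (ht : t ≠ 1) (htS : t ∈ S) (hc : ∀ x ∈ S, x * t = t * x) : ¬ Group.IsSolvable ↥(centralizer ({t} : Set L)) := by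
  intro hsol
  obtain ⟨F, i1, i2, hF, ⟨e⟩⟩ := h
  have h5p : Fact (Nat.Prime 5) := ⟨by norm_num⟩
  have hch : CharP F 5 := charP_of_card_eq_prime hF
  have h2 : (2 : F) ≠ 0 := by
    intro h0
    have : ((2 : ℕ) : F) = 0 := by exact_mod_cast h0
    rw [CharP.cast_eq_zero_iff F 5] at this
    omega
  have h3 : (3 : F) ≠ 0 := by
    intro h0
    have : ((3 : ℕ) : F) = 0 := by exact_mod_cast h0
    rw [CharP.cast_eq_zero_iff F 5] at this
    omega
  obtain ⟨P0, hP0, hinj⟩ := exists_sylow (F := F) hF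
  obtain ⟨f, hf⟩ := exists_equiv e S P0
  have H := sys (F := F)
  obtain ⟨u, hu⟩ := (hP0 (f t)).1 ((hf t).1 htS)
  obtain ⟨c, hc'⟩ := center H h2 h3 hinj (u := u) (fun v => by
    have hv := (hP0 _).2 ⟨v, rfl⟩
    rw [← hu]
    obtain ⟨y, hy⟩ := f.surjective (Cfsg.Agent.H240.GFive.NF (XX : ZMod 12 → F → ↥(chevG2.group F)) v)
    rw [← hy, ← map_mul, ← map_mul]
    rw [← hy] at hv
    rw [hc y ((hf y).2 hv)])
  have hft : f t = XX 3 c := hu.trans hc'
  have hc0 : c ≠ 0 := by
    rintro rfl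
    rw [H.zero] at hft
    exact ht ((map_eq_one_iff f f.injective).1 hft)
  have hsol2 := Cfsg.Agent.H238.SolCent.solvable_map f hsol
  rw [hft] at hsol2
  -- `M ≤ C(X₃)`
  apply ns_range hF
  let C := centralizer ({(XX 3 c : ↥(chevG2.group F))} : Set ↥(chevG2.group F))
  have hle : (chevG2.rootSubgroup F 7 ⊔ chevG2.rootSubgroup F 4 : Subgroup (GL chevG2.Idx F)) ≤
      C.map (chevG2.group F).subtype := by
    have h4 : (chevG2.rootSubgroup F 7 ⊔ chevG2.rootSubgroup F 4 : Subgroup (GL chevG2.Idx F)) ≤ M F chevG2 [4] := by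
      rw [M_eq]
      refine sup_le_sup_right ?_ _
      obtain ⟨-, h2⟩ := Cfsg.Agent.S1045.result (F := F) chevG2 inG2 0 (by decide)
      have e1 : chevG2.simple 0 = 7 := by decide +kernel
      rw [e1] at h2
      rw [← h2]
      exact le_sup_right
    refine h4.trans ?_
    rw [← Cfsg.Agent.H82.RootCent.main inG2 (dat F)]
    rintro g ⟨hg, hgc⟩
    refine ⟨⟨g, hg⟩, ?_, rfl⟩
    rw [SetLike.mem_coe, mem_centralizer_singleton_iff]
    have h5 : (⟨g, hg⟩ : ↥(chevG2.group F)) * XX 3 1 = XX 3 1 * ⟨g, hg⟩ := by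
      apply Subtype.ext
      have h6 := mem_centralizer_singleton_iff.1 hgc
      show g * ((XX 3 1 : ↥(chevG2.group F)) : GL chevG2.Idx F) = ((XX 3 1 : ↥(chevG2.group F)) : GL chevG2.Idx F) * g
      rw [Cfsg.Agent.H833.GFiveCent.coe_XX]
      exact h6
    obtain ⟨n, hn⟩ := mem_zpowers_iff.1 (mem_zpow hF H (f := 1) (f' := c) one_ne_zero)
    rw [← hn]
    exact ((show Commute _ _ from h5).zpow_right n).eq
  have h6 : Group.IsSolvable ↥(C.map (chevG2.group F).subtype) :=
    Group.isSolvable_of_isSolvable_injective (f := ((C.equivMapOfInjective _ (chevG2.group F).subtype_injective).symm).toMonoidHom)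
      (C.equivMapOfInjective _ (chevG2.group F).subtype_injective).symm.injective
  exact Group.isSolvable_of_isSolvable_injective (Subgroup.inclusion_injective hle)

end Cfsg.Agent.H238.GFiveNS
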